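import Cfsg.Agent.H891.EPF.YData

/-!
# S5745, `²E₆(2)` and `Fi₂₂`: elements of order 5 and 7 (helper891)

`exists_y` : for `p = 5, 7` there is an element of order `p` commuting with `x_71(1)` and with `x_46(1) x_70(1)`.
-/

set_option autoImplicit false
set_option linter.unusedSectionVars false

namespace Cfsg.Agent.H891.EPF

open Cfsg.Agent.Nodes.RGDTwGen Cfsg.Agent.Nodes.RGDChev Cfsg.Agent.Nodes.RGDFold
open Cfsg.Lie Cfsg.Agent.ChevalleyStructure Cfsg.Agent.ChevalleyStructure.Elts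
open Cfsg.Agent.ChevalleyStructure.TwE6Basic (sg hE6)
open Cfsg.Agent.Nodes.RGDTwE6 Cfsg.Agent.KFacts.TwESix.Comb Cfsg.Agent.H891.TE6.Eng Cfsg.Agent.H891.TE6
open Cfsg.Agent.TwoESix.LeviA (Four)
open Cfsg.Agent.TwoESix.FlagH (xe)

universe u

set_option maxRecDepth 20000 in
theorem shoY : ∀ p ∈ ([(42, 37), (56, 36), (15, 35), (29, 34)] : List (Fin 72 × Fin 72)),
    TwE6Basic.rho p.1 = p.2 := by decide +kernel

variable {K : Type u} [Field K] [Fintype K] {φ : K →+* K} {ω : K}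

section

variable [CharP K 2]

theorem wdG_ne (hω : ω ^ 2 + ω + 1 = 0) {w w' : List (ℕ × ℕ)} {f f' : ℕ → ℕ} (h : Acts chevE6 w f)
    (h' : Acts chevE6 w' f') {k : ℕ} (hk : k < 78) (hc : neqAt (f 1) (f' 1) k = true) :
    wdG ω hE6 w ≠ wdG ω hE6 w' := by
  intro e
  have h1 := vecMul_acts hE6 hω h 1
  have h2 := vecMul_acts hE6 hω h' 1
  rw [e, h2] at h1
  obtain ⟨a, ha⟩ := Th.E8Recipe.exists_code (D := chevE6) (k := k) (lt_of_lt_of_eq hk (by decide +kernel))
  have h3 := congrFun h1 a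
  rw [ha] at h3
  exact val_ne hω hc h3.symm

theorem mem_of_root (hφ : ∀ x, φ x = x ^ 2) (hqq : ∀ t : K, (t ^ 2) ^ 2 = t) {z : Fin 4 → ℤ} (hz : z ∈ rts)
    {g : GL chevE6.Idx K} (hg : g ∈ R chevE6 hp K J (sg φ) z) : g ∈ twistedE6 K 2 := by
  have : Fact (Nat.Prime 2) := ⟨Nat.prime_two⟩
  exact R_le CoxeterMatrix.F₄.toCoxeterSystem isCartan foldData (foldGrp hφ hqq) 2 ((mem_rts _).2 hz) hg

theorem pow_omega (hω : ω ^ 2 + ω + 1 = 0) (i : ℕ) : ω ^ (2 * i % 3) = (ω ^ i) ^ 2 := by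
  rw [← pow_mul, mul_comm i 2]
  conv_rhs => rw [← Nat.mod_add_div (2 * i) 3, pow_add, pow_mul, pow_three hω, one_pow, mul_one]

variable (hφ : ∀ x, φ x = x ^ 2) (hqq : ∀ t : K, (t ^ 2) ^ 2 = t) (hω : ω ^ 2 + ω + 1 = 0)

include hφ hqq hω

theorem short_mem (r r' : Fin 72) (hr : TwE6Basic.rho r = r') (i : ℕ) :
    wdG ω hE6 [(r.val, i), (r'.val, 2 * i % 3)] ∈ twistedE6 K 2 := by
  refine mem_of_root hφ hqq (V_mem_rts r.val r.2) ?_
  have h1 := mem_short (K := K) (φ := φ) r (t := ω ^ i) (s := ω ^ (2 * i % 3)) hφ (pow_omega hω i) (by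
    rw [pow_omega hω, hqq])
  rw [hr] at h1
  have e : wdG ω hE6 [(r.val, i), (r'.val, 2 * i % 3)] =
      xG hE6 r.val (ω ^ i) * xG hE6 r'.val (ω ^ (2 * i % 3)) := by
    rw [wdG_cons, wdG_cons]
    show _ * (_ * 1) = _
    rw [mul_one]
  rw [e]
  exact h1

theorem wY5_mem : wdG ω hE6 wY5 ∈ twistedE6 K 2 := by
  unfold wY5
  rw [wdG_append]
  exact mul_mem (short_mem hφ hqq hω 56 36 (shoY (56, 36) (by simp)) 0)
    (short_mem hφ hqq hω 15 35 (shoY (15, 35) (by simp)) 1)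

theorem wY7_mem : wdG ω hE6 wY7 ∈ twistedE6 K 2 := by
  unfold wY7
  rw [wdG_append, wdG_append, wdG_append]
  exact mul_mem (short_mem hφ hqq hω 42 37 (shoY (42, 37) (by simp)) 0)
    (mul_mem (short_mem hφ hqq hω 56 36 (shoY (56, 36) (by simp)) 0)
    (mul_mem (short_mem hφ hqq hω 15 35 (shoY (15, 35) (by simp)) 0)
      (short_mem hφ hqq hω 29 34 (shoY (29, 34) (by simp)) 0)))

end

/-- the element `x_46(1) x_70(1)` -/
def uu (F : Four K φ) : ↥(twistedE6 K 2) := xe F 46 (by decide +kernel) * xe F 70 (by decide +kernel)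

theorem wdG_one (r : ℕ) : wdG ω hE6 [(r, 0)] = xG hE6 r (1 : K) := by
  rw [wdG_cons]
  show _ * 1 = _
  rw [mul_one, pow_zero]

/-- **elements of order 5 and 7 commuting with `r` and `u`** -/
theorem exists_y (F : Four K φ) {p : ℕ} (hp' : p = 5 ∨ p = 7) : ∃ y : ↥(twistedE6 K 2), orderOf y = p ∧
    y * xe F 71 (by decide +kernel) = xe F 71 (by decide +kernel) * y ∧ y * uu F = uu F * y := by
  have := F.charP
  obtain ⟨ω, hω⟩ := exists_omega (K := K) (by rw [F.card]; norm_num)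
  have key : ∀ {w : List (ℕ × ℕ)} {l : List Ltr} {p k : ℕ}, p.Prime → wdG ω hE6 w ∈ twistedE6 K 2 →
      Acts chevE6 w (run M78 l) → chkEq chevE6 (itf (run M78 l) p) (fun s => s) = true →
      chkEq chevE6 (fun s => force (run M78 l s) (run M78 lU)) (fun s => force (run M78 lU s) (run M78 l)) = true →
      chkEq chevE6 (fun s => force (run M78 l s) (run M78 [l71])) (fun s => force (run M78 [l71] s) (run M78 l)) =
        true → k < 78 → neqAt (run M78 l 1) 1 k = true → ∃ y : ↥(twistedE6 K 2), orderOf y = p ∧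
      y * xe F 71 (by decide +kernel) = xe F 71 (by decide +kernel) * y ∧ y * uu F = uu F * y := by
    intro w l p k hpp hm ha h1 h2 h3 hk h4
    have hfact : Fact p.Prime := ⟨hpp⟩
    refine ⟨⟨wdG ω hE6 w, hm⟩, ?_, ?_, ?_⟩
    · refine orderOf_eq_prime (Subtype.ext ?_) (fun h => ?_)
      · show wdG ω hE6 w ^ p = 1
        rw [← wdG_flatten]
        exact eq_of_chk hE6 hω (ha.iter p) Acts.nil h1
      · exact wdG_ne hω ha Acts.nil hk h4 (congrArg Subtype.val h)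
    · refine Subtype.ext ?_
      show wdG ω hE6 w * xG hE6 71 (1 : K) = xG hE6 71 (1 : K) * wdG ω hE6 w
      rw [← wdG_one (ω := ω), ← wdG_append, ← wdG_append]
      exact eq_of_chk hE6 hω (ha.append acts_R) (acts_R.append ha) h3
    · refine Subtype.ext ?_
      show wdG ω hE6 w * (xG hE6 46 (1 : K) * xG hE6 70 (1 : K)) = xG hE6 46 (1 : K) * xG hE6 70 (1 : K) * wdG ω hE6 w
      have e : xG hE6 46 (1 : K) * xG hE6 70 (1 : K) = wdG ω hE6 wU := by
        unfold wU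
        rw [wdG_append, wdG_one, wdG_one]
      rw [e, ← wdG_append, ← wdG_append]
      exact eq_of_chk hE6 hω (ha.append acts_U) (acts_U.append ha) h2
  rcases hp' with rfl | rfl
  · exact key (by norm_num) (wY5_mem F.sq F.sqq hω) acts_Y5 y5_pow y5_u y5_r (k := 2) (by norm_num)
      (by decide +kernel)
  · exact key (by norm_num) (wY7_mem F.sq F.sqq hω) acts_Y7 y7_pow y7_u y7_r (k := 2) (by norm_num)
      (by decide +kernel)

end Cfsg.Agent.H891.EPF
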