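import Cfsg.Agent.H891.EPF.Letters
import Cfsg.Agent.H891.EPF.Y

/-!
# S5745, `²E₆(2)` and `Fi₂₂`: the transvections do not fix `u` modulo `r` (helper891)

* `chk_pos`, `chk_neg` : `t u t⁻¹ u⁻¹ ≠ 1, x_71(1)` for `t = y` or `t = p₁ p₂ p₃ y (p₁ p₂ p₃)⁻¹`.
-/

set_option autoImplicit false
set_option linter.unusedSectionVars false

namespace Cfsg.Agent.H891.TE6.Eng

open Cfsg Cfsg.Lie

/-- different vectors -/
def neqv (a b : ℕ) : Bool := !(Nat.beq (Nat.land (Nat.xor a b) (2 ^ 156 - 1)) 0)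

theorem exists_of_neqv {K : Type*} [Field K] [CharP K 2] {ω : K} (hω : ω ^ 2 + ω + 1 = 0) {a b : ℕ}
    (h : neqv a b = true) : ∃ k < 78, val ω a k ≠ val ω b k := by
  by_contra hcon
  push Not at hcon
  have h1 : Nat.land (Nat.xor a b) (2 ^ 156 - 1) = 0 := by
    apply Nat.eq_of_testBit_eq
    intro i
    have e : (Nat.land (Nat.xor a b) (2 ^ 156 - 1)).testBit i = ((a.testBit i ^^ b.testBit i) && decide (i < 156)) := by
      have : Nat.land (Nat.xor a b) (2 ^ 156 - 1) = (a ^^^ b) &&& (2 ^ 156 - 1) := rfl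
      rw [this, Nat.testBit_and, Nat.testBit_xor, Nat.testBit_two_pow_sub_one]
    rw [e, Nat.zero_testBit]
    by_cases hi : i < 156
    · have h2 := bt_ne_omega hω (hcon (i / 2) (by omega))
      rcases Nat.mod_two_eq_zero_or_one i with h3 | h3
      · have h4 : 2 * (i / 2) = i := by omega
        rw [h4] at h2
        rw [h2.1]
        simp
      · have h4 : 2 * (i / 2) + 1 = i := by omega
        rw [h4] at h2
        rw [h2.2]
        simp
    · simp [hi]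
  unfold neqv at h
  rw [h1] at h
  exact absurd h (by decide)

/-- the check -/
def ck (c : Ltr) (A B C : List (List (ℕ × ℕ) × List Ltr)) (s : ℕ) : Bool :=
  A.all fun a => force (run M78 a.2 s) fun s => B.all fun b => force (run M78 b.2 s) fun s =>
    C.all fun c' => force (run M78 c'.2 s) fun s => neqv (run M78 [c] s) s

theorem ck_spec {c : Ltr} {A B C : List (List (ℕ × ℕ) × List Ltr)} {s : ℕ} (h : ck c A B C s = true) :
    ∀ a ∈ A, ∀ b ∈ B, ∀ c' ∈ C, neqv (run M78 [c] (run M78 (a.2 ++ (b.2 ++ c'.2)) s)) (run M78 (a.2 ++ (b.2 ++ c'.2)) s) =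
      true := by
  intro a ha b hb c' hc'
  unfold ck at h
  have h1 := List.all_eq_true.1 h a ha
  rw [force_eq] at h1
  have h2 := List.all_eq_true.1 h1 b hb
  rw [force_eq] at h2
  have h3 := List.all_eq_true.1 h2 c' hc'
  rw [force_eq] at h3
  rw [run_append, run_append]
  exact h3

/-- the words act as the letters -/
def OkS (A : List (List (ℕ × ℕ) × List Ltr)) : Prop :=
  ∀ a ∈ A, Acts chevE6 a.1 (run M78 a.2) ∧ run M78 a.2 4 = 4

theorem ok40 : OkS s40 := by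
  unfold OkS s40
  simp only [List.forall_mem_cons, List.not_mem_nil, false_imp_iff, implies_true, and_true]
  refine ⟨⟨Acts.nil, rfl⟩, ⟨?_, ?_⟩, ⟨?_, ?_⟩, ⟨?_, ?_⟩⟩
  · exact Acts.of_ltrs msk78 (by decide +kernel) (by simp only [ltrs, List.map_cons, List.map_nil, k40_eq, k43_eq])
  · decide +kernel
  · exact Acts.of_ltrs msk78 (by decide +kernel) (by simp only [ltrs, List.map_cons, List.map_nil, k40w1_eq, k43w2_eq])
  · decide +kernel
  · exact Acts.of_ltrs msk78 (by decide +kernel) (by simp only [ltrs, List.map_cons, List.map_nil, k40w2_eq, k43w1_eq])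
  · decide +kernel

theorem ok41 : OkS s41 := by
  unfold OkS s41
  simp only [List.forall_mem_cons, List.not_mem_nil, false_imp_iff, implies_true, and_true]
  refine ⟨⟨Acts.nil, rfl⟩, ⟨?_, ?_⟩, ⟨?_, ?_⟩, ⟨?_, ?_⟩⟩
  · exact Acts.of_ltrs msk78 (by decide +kernel) (by simp only [ltrs, List.map_cons, List.map_nil, k41_eq, k58_eq])
  · decide +kernel
  · exact Acts.of_ltrs msk78 (by decide +kernel) (by simp only [ltrs, List.map_cons, List.map_nil, k41w1_eq, k58w2_eq])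
  · decide +kernel
  · exact Acts.of_ltrs msk78 (by decide +kernel) (by simp only [ltrs, List.map_cons, List.map_nil, k41w2_eq, k58w1_eq])
  · decide +kernel

theorem ok45 : OkS s45 := by
  unfold OkS s45
  simp only [List.forall_mem_cons, List.not_mem_nil, false_imp_iff, implies_true, and_true]
  refine ⟨⟨Acts.nil, rfl⟩, ⟨?_, ?_⟩, ⟨?_, ?_⟩, ⟨?_, ?_⟩⟩
  · exact Acts.of_ltrs msk78 (by decide +kernel) (by simp only [ltrs, List.map_cons, List.map_nil, k45_eq, k59_eq])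
  · decide +kernel
  · exact Acts.of_ltrs msk78 (by decide +kernel) (by simp only [ltrs, List.map_cons, List.map_nil, k45w1_eq, k59w2_eq])
  · decide +kernel
  · exact Acts.of_ltrs msk78 (by decide +kernel) (by simp only [ltrs, List.map_cons, List.map_nil, k45w2_eq, k59w1_eq])
  · decide +kernel

theorem okL_aux {r : ℕ} {l : Ltr} (h : mkL chevE6 r 0 = l) (hok : okL chevE6 r = true) (h4 : run M78 [l] 4 = 4) :
    OkS [([], []), ([(r, 0)], [l])] := by
  unfold OkS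
  simp only [List.forall_mem_cons, List.not_mem_nil, false_imp_iff, implies_true, and_true]
  exact ⟨⟨Acts.nil, rfl⟩, ⟨Acts.of_ltrs msk78 (by simp [hok]) (by simp only [ltrs, List.map_cons, List.map_nil, h]),
    h4⟩⟩

theorem ok39 : OkS s39 := okL_aux k39_eq (by decide +kernel) (by decide +kernel)
theorem ok44 : OkS s44 := okL_aux k44_eq (by decide +kernel) (by decide +kernel)
theorem ok60 : OkS s60 := okL_aux k60_eq (by decide +kernel) (by decide +kernel)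
theorem ok32 : OkS s32 := okL_aux k32_eq (by decide +kernel) (by decide +kernel)
theorem ok27 : OkS s27 := okL_aux k27_eq (by decide +kernel) (by decide +kernel)
theorem ok11 : OkS s11 := okL_aux k11_eq (by decide +kernel) (by decide +kernel)

/-- the image of the basis vector under `u` -/
def sU : ℕ := run M78 lU 4

theorem sU_r : run M78 [l71] sU = sU := by decide +kernel

theorem ck1 : ck k32 s39 s40 s41 sU = true := by decide +kernel
theorem ck2 : ck k27 s44 s40 s45 sU = true := by decide +kernel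
theorem ck3 : ck k11 s60 s41 s45 sU = true := by decide +kernel
theorem ck4 : ck k39 [([], [])] [([], [])] [([], [])] sU = true := by decide +kernel
theorem ck5 : ck k44 [([], [])] [([], [])] [([], [])] sU = true := by decide +kernel
theorem ck6 : ck k60 [([], [])] [([], [])] [([], [])] sU = true := by decide +kernel

theorem u_r : chkEq chevE6 (fun s => force (run M78 lU s) (run M78 [l71])) (fun s => force (run M78 [l71] s) (run M78 lU)) =
    true := by decide +kernel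

end Cfsg.Agent.H891.TE6.Eng

namespace Cfsg.Agent.H891.EPF

open Matrix
open Cfsg.Agent.Nodes.RGDTwGen Cfsg.Agent.Nodes.RGDChev Cfsg.Agent.Nodes.RGDFold
open Cfsg.Lie Cfsg.Agent.ChevalleyStructure Cfsg.Agent.ChevalleyStructure.Elts
open Cfsg.Agent.ChevalleyStructure.TwE6Basic (sg hE6)
open Cfsg.Agent.Nodes.RGDTwE6 Cfsg.Agent.KFacts.TwESix.Comb Cfsg.Agent.H891.TE6.Eng Cfsg.Agent.H891.TE6
open Cfsg.Agent.TwoESix.LeviA (Four)
open Cfsg.Agent.TwoESix.FlagH (xe)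
open Cfsg.Agent.Th.E8Recipe (code)

universe u

/-- linear algebra: `t` does not fix `u` modulo `r` -/
theorem not_fix {ι K : Type*} [Fintype ι] [DecidableEq ι] [Field K] (ξ : ι → K) {v c u r : GL ι K}
    (hv : ξ ᵥ* (v : Matrix ι ι K) = ξ) (hc : ξ ᵥ* (c : Matrix ι ι K) = ξ) (hur : u * r = r * u)
    (hr : (ξ ᵥ* (u : Matrix ι ι K)) ᵥ* (r : Matrix ι ι K) = ξ ᵥ* (u : Matrix ι ι K))
    (hne : ((ξ ᵥ* (u : Matrix ι ι K)) ᵥ* (v : Matrix ι ι K)) ᵥ* (c : Matrix ι ι K) ≠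
      (ξ ᵥ* (u : Matrix ι ι K)) ᵥ* (v : Matrix ι ι K)) {ε : GL ι K} (hε : ε = 1 ∨ ε = r) :
    (v * c * v⁻¹) * u * (v * c * v⁻¹)⁻¹ * u⁻¹ ≠ ε := by
  intro h
  have hA : ∀ (ξ : ι → K) (a b : GL ι K), (ξ ᵥ* (a : Matrix ι ι K)) ᵥ* (b : Matrix ι ι K) =
      ξ ᵥ* ((a * b : GL ι K) : Matrix ι ι K) := fun ξ a b => by
    rw [Matrix.vecMul_vecMul, Units.val_mul]
  have hinv : ∀ (ξ : ι → K) (a : GL ι K), ξ ᵥ* (a : Matrix ι ι K) = ξ → ξ ᵥ* ((a⁻¹ : GL ι K) : Matrix ι ι K) = ξ := by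
    intro ξ a ha
    nth_rewrite 1 [← ha]
    rw [hA, mul_inv_cancel, Units.val_one, Matrix.vecMul_one]
  have ht : ξ ᵥ* ((v * c * v⁻¹ : GL ι K) : Matrix ι ι K) = ξ := by
    rw [← hA, ← hA, hv, hc, hinv ξ v hv]
  have h1 : (v * c * v⁻¹) * u = ε * u * (v * c * v⁻¹) := by
    rw [← h]; group
  have hεu : ε * u = u * ε := by
    rcases hε with rfl | rfl
    · rw [one_mul, mul_one]
    · exact hur.symm
  have hεr : (ξ ᵥ* (u : Matrix ι ι K)) ᵥ* (ε : Matrix ι ι K) = ξ ᵥ* (u : Matrix ι ι K) := by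
    rcases hε with rfl | rfl
    · rw [Units.val_one, Matrix.vecMul_one]
    · exact hr
  have h2 : ξ ᵥ* (u : Matrix ι ι K) = (ξ ᵥ* (u : Matrix ι ι K)) ᵥ* ((v * c * v⁻¹ : GL ι K) : Matrix ι ι K) := by
    calc ξ ᵥ* (u : Matrix ι ι K) = (ξ ᵥ* ((v * c * v⁻¹ : GL ι K) : Matrix ι ι K)) ᵥ* (u : Matrix ι ι K) := by rw [ht]
      _ = ξ ᵥ* ((u * ε * (v * c * v⁻¹) : GL ι K) : Matrix ι ι K) := by rw [hA, h1, hεu]
      _ = ((ξ ᵥ* (u : Matrix ι ι K)) ᵥ* (ε : Matrix ι ι K)) ᵥ* ((v * c * v⁻¹ : GL ι K) : Matrix ι ι K) := by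
        rw [hA, hA, mul_assoc u ε]
      _ = _ := by rw [hεr]
  apply hne
  calc ((ξ ᵥ* (u : Matrix ι ι K)) ᵥ* (v : Matrix ι ι K)) ᵥ* (c : Matrix ι ι K)
      = (ξ ᵥ* (u : Matrix ι ι K)) ᵥ* ((v * c : GL ι K) : Matrix ι ι K) := hA _ _ _
    _ = (ξ ᵥ* (u : Matrix ι ι K)) ᵥ* ((v * c * v⁻¹ * v : GL ι K) : Matrix ι ι K) := by rw [inv_mul_cancel_right]
    _ = ((ξ ᵥ* (u : Matrix ι ι K)) ᵥ* ((v * c * v⁻¹ : GL ι K) : Matrix ι ι K)) ᵥ* (v : Matrix ι ι K) := (hA _ _ _).symm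
    _ = _ := by rw [← h2]

variable {K : Type u} [Field K] [Fintype K] {φ : K →+* K} {ω : K}

set_option maxRecDepth 20000 in
theorem V_longs : ∀ r ∈ ([39, 44, 60, 32, 27, 11] : List (Fin 72)), TwE6Basic.rho r = r ∧ ∀ k < chevE6.nroots,
    (V chevE6 J k = V chevE6 J r.val ↔ k ∈ [r.val]) := by decide +kernel

set_option maxRecDepth 20000 in
theorem V_shorts : ∀ r ∈ ([40, 41, 45] : List (Fin 72)), ∀ k < chevE6.nroots, (V chevE6 J k = V chevE6 J r.val ↔
    k ∈ [r.val, (TwE6Basic.rho r).val]) := by decide +kernel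

set_option maxRecDepth 20000 in
theorem rho_shorts : TwE6Basic.rho 40 = 43 ∧ TwE6Basic.rho 41 = 58 ∧ TwE6Basic.rho 45 = 59 := by decide +kernel

set_option maxRecDepth 20000 in
theorem V_val : V chevE6 J 39 = ![0, 1, 0, 0] ∧ V chevE6 J 44 = ![0, 1, 2, 0] ∧ V chevE6 J 60 = ![0, 1, 2, 2] ∧
    V chevE6 J 32 = -![0, 1, 0, 0] ∧ V chevE6 J 27 = -![0, 1, 2, 0] ∧ V chevE6 J 11 = -![0, 1, 2, 2] ∧
    V chevE6 J 40 = ![0, 1, 1, 0] ∧ V chevE6 J 41 = ![0, 1, 1, 1] ∧ V chevE6 J 45 = ![0, 1, 2, 1] := by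
  decide +kernel

section

variable [CharP K 2]

theorem wdG_ne' (hω : ω ^ 2 + ω + 1 = 0) {w w' : List (ℕ × ℕ)} {f f' : ℕ → ℕ} (h : Acts chevE6 w f)
    (h' : Acts chevE6 w' f') {k : ℕ} (hk : k < 78) (s : ℕ) (hc : neqAt (f s) (f' s) k = true) :
    wdG ω hE6 w ≠ wdG ω hE6 w' := by
  intro e
  have h1 := vecMul_acts hE6 hω h s
  have h2 := vecMul_acts hE6 hω h' s
  rw [e, h2] at h1
  obtain ⟨a, ha⟩ := Th.E8Recipe.exists_code (D := chevE6) (k := k) (lt_of_lt_of_eq hk (by decide +kernel))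
  have h3 := congrFun h1 a
  rw [ha] at h3
  exact val_ne hω hc h3.symm

theorem ne_of (hω : ω ^ 2 + ω + 1 = 0) {r r' t t' : ℕ} {l l' : Ltr} (h : mkL chevE6 r t = l) (h' : mkL chevE6 r' t' = l')
    (hr : okL chevE6 r = true) (hr' : okL chevE6 r' = true) {k : ℕ} (hk : k < 78) (s : ℕ)
    (hc : neqAt (run M78 [l] s) (run M78 [l'] s) k = true) : xG hE6 r (ω ^ t) ≠ xG hE6 r' (ω ^ t') := by
  have h1 := wdG_ne' hω (Acts.of_ltrs (w := [(r, t)]) msk78 (by simp [hr])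
    (by simp only [ltrs, List.map_cons, List.map_nil, h]))
    (Acts.of_ltrs (w := [(r', t')]) msk78 (by simp [hr']) (by simp only [ltrs, List.map_cons, List.map_nil, h']))
    hk s hc
  rw [wdG_cons, wdG_cons] at h1
  intro e
  apply h1
  show _ * 1 = _ * 1
  rw [mul_one, mul_one]
  exact e

theorem wdG_two (r r' i j : ℕ) : wdG ω hE6 [(r, i), (r', j)] = xG hE6 r (ω ^ i) * xG hE6 r' (ω ^ j) := by
  rw [wdG_cons, wdG_cons]
  show _ * (_ * 1) = _
  rw [mul_one]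

variable (hφ : ∀ x, φ x = x ^ 2) (hK : Fintype.card K = 2 ^ 2) (hω : ω ^ 2 + ω + 1 = 0)

include hφ hω in
theorem long_dig {r : Fin 72} {l : Ltr} (hr : r ∈ ([39, 44, 60, 32, 27, 11] : List (Fin 72))) {z : Fin 4 → ℤ}
    (hz : V chevE6 J r.val = z) {g : ↥(twistedE6 K 2)} (hg : g ∈ X φ 2 z) :
    ∃ a ∈ ([([], []), ([(r.val, 0)], [l])] : List (List (ℕ × ℕ) × List Ltr)), (g : GL chevE6.Idx K) = wdG ω hE6 a.1 := by
  subst hz
  obtain ⟨h1, h2⟩ := V_longs r hr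
  rcases long_cases r h1 h2 hφ hg with h | h
  · exact ⟨([], []), by simp, h⟩
  · exact ⟨([(r.val, 0)], [l]), by simp, h.trans (wdG_one r.val).symm⟩

include hφ hω hK in
theorem short_dig {r r' : Fin 72} (hr : r ∈ ([40, 41, 45] : List (Fin 72))) (hr' : TwE6Basic.rho r = r')
    (hrr : r.val ≠ r'.val) (hne : ∀ i < 3, xG hE6 r.val (ω ^ i) ≠ xG hE6 r'.val (ω ^ (2 * i % 3))) {z : Fin 4 → ℤ}
    (hz : V chevE6 J r.val = z) {g : ↥(twistedE6 K 2)} (hg : g ∈ X φ 2 z)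
    {l0 l1 l2 : List Ltr} : ∃ a ∈ ([([], []), ([(r.val, 0), (r'.val, 0)], l0), ([(r.val, 1), (r'.val, 2)], l1),
      ([(r.val, 2), (r'.val, 1)], l2)] : List (List (ℕ × ℕ) × List Ltr)),
      (g : GL chevE6.Idx K) = wdG ω hE6 a.1 := by
  subst hz
  have h2 := V_shorts r hr
  rcases short_cases hK hω r (by rw [hr']; exact hrr) h2 (by rw [hr']; exact hne) hφ hg with h | ⟨i, hi, h⟩
  · exact ⟨([], []), by simp, h⟩
  · rw [hr'] at h
    interval_cases i
    · exact ⟨([(r.val, 0), (r'.val, 0)], l0), by simp, h.trans (wdG_two r.val r'.val 0 0).symm⟩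
    · exact ⟨([(r.val, 1), (r'.val, 2)], l1), by simp, h.trans (wdG_two r.val r'.val 1 2).symm⟩
    · exact ⟨([(r.val, 2), (r'.val, 1)], l2), by simp, h.trans (wdG_two r.val r'.val 2 1).symm⟩

include hω in
/-- the main step -/
theorem main_step {c : Ltr} {rc : ℕ} {A B C : List (List (ℕ × ℕ) × List Ltr)} (hA : OkS A) (hB : OkS B) (hC : OkS C)
    (hcc : OkS [([], []), ([(rc, 0)], [c])]) (hck : ck c A B C sU = true) {a b c' : List (ℕ × ℕ) × List Ltr}
    (ha : a ∈ A) (hb : b ∈ B) (hc' : c' ∈ C) {ε : GL chevE6.Idx K} (hε : ε = 1 ∨ ε = xG hE6 71 (1 : K)) :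
    ((wdG ω hE6 a.1 * wdG ω hE6 b.1 * wdG ω hE6 c'.1) * xG hE6 rc (1 : K) *
      (wdG ω hE6 a.1 * wdG ω hE6 b.1 * wdG ω hE6 c'.1)⁻¹) * (xG hE6 46 (1 : K) * xG hE6 70 (1 : K)) *
      ((wdG ω hE6 a.1 * wdG ω hE6 b.1 * wdG ω hE6 c'.1) * xG hE6 rc (1 : K) *
      (wdG ω hE6 a.1 * wdG ω hE6 b.1 * wdG ω hE6 c'.1)⁻¹)⁻¹ * (xG hE6 46 (1 : K) * xG hE6 70 (1 : K))⁻¹ ≠ ε := by
  have eU : xG hE6 46 (1 : K) * xG hE6 70 (1 : K) = wdG ω hE6 wU := by
    unfold wU
    rw [wdG_append, wdG_one, wdG_one]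
  have eR : xG hE6 71 (1 : K) = wdG ω hE6 [(71, 0)] := (wdG_one 71).symm
  have eC : xG hE6 rc (1 : K) = wdG ω hE6 [(rc, 0)] := (wdG_one rc).symm
  have aV := (hA a ha).1.append ((hB b hb).1.append (hC c' hc').1)
  have aC := hcc ([(rc, 0)], [c]) (by simp)
  have e4 : ∀ s, force (run M78 a.2 s) (fun s => force (run M78 b.2 s) (run M78 c'.2)) =
      run M78 (a.2 ++ (b.2 ++ c'.2)) s := by
    intro s
    rw [force_eq, force_eq, run_append, run_append]
  have eV : wdG ω hE6 a.1 * wdG ω hE6 b.1 * wdG ω hE6 c'.1 = wdG ω hE6 (a.1 ++ (b.1 ++ c'.1)) := by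
    rw [wdG_append, wdG_append, mul_assoc]
  rw [eV, eU, eC]
  rw [eR] at hε
  have key : ∀ {w : List (ℕ × ℕ)} {f : ℕ → ℕ}, Acts chevE6 w f → ∀ s : ℕ,
      (fun a : chevE6.Idx => val ω s (code chevE6 a)) ᵥ* ((wdG ω hE6 w : GL chevE6.Idx K) : Matrix chevE6.Idx chevE6.Idx K) =
      fun a : chevE6.Idx => val ω (f s) (code chevE6 a) := fun h s => vecMul_acts hE6 hω h s
  have hs4 : ∀ (s s' : ℕ), s = s' → (fun a : chevE6.Idx => val ω s (code chevE6 a)) =
      fun a : chevE6.Idx => val ω s' (code chevE6 a) := fun s s' h => by rw [h]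
  refine not_fix (fun a : chevE6.Idx => val ω 4 (code chevE6 a)) ?_ ?_ ?_ ?_ ?_ hε
  · rw [key aV 4]
    apply hs4
    show force (run M78 a.2 4) (fun s => force (run M78 b.2 s) (run M78 c'.2)) = 4
    rw [force_eq, force_eq, (hA a ha).2, (hB b hb).2, (hC c' hc').2]
  · rw [key aC.1 4]
    exact hs4 _ _ aC.2
  · rw [← wdG_append, ← wdG_append]
    exact eq_of_chk hE6 hω (acts_U.append acts_R) (acts_R.append acts_U) u_r
  · rw [key acts_U 4, key acts_R]
    exact hs4 _ _ sU_r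
  · rw [key acts_U 4, key aV, key aC.1]
    intro h
    have h1 := ck_spec hck a ha b hb c' hc'
    obtain ⟨k, hk, hne⟩ := exists_of_neqv hω h1
    obtain ⟨i, hi⟩ := Th.E8Recipe.exists_code (D := chevE6) (k := k) (lt_of_lt_of_eq hk (by decide +kernel))
    have h2 := congrFun h i
    rw [hi] at h2
    apply hne
    rw [← e4]
    exact h2

end

/-- the triples of roots -/
def lst : List ((Fin 4 → ℤ) × (Fin 4 → ℤ) × (Fin 4 → ℤ)) :=
  [(![0, 1, 0, 0], ![0, 1, 1, 0], ![0, 1, 1, 1]), (![0, 1, 2, 0], ![0, 1, 1, 0], ![0, 1, 2, 1]),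
    (![0, 1, 2, 2], ![0, 1, 1, 1], ![0, 1, 2, 1])]

section

variable (F : Four K φ)

include F in
theorem cases_y {r : Fin 72} (hr : r ∈ ([39, 44, 60, 32, 27, 11] : List (Fin 72))) {z : Fin 4 → ℤ}
    (hz : V chevE6 J r.val = z) {y : ↥(twistedE6 K 2)} (hy : y ∈ X φ 2 z) (hy1 : y ≠ 1) :
    (y : GL chevE6.Idx K) = xG hE6 r.val (1 : K) := by
  have := F.charP
  subst hz
  obtain ⟨h1, h2⟩ := V_longs r hr
  rcases long_cases r h1 h2 F.sq hy with h | h
  · exact absurd (Subtype.ext h) hy1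
  · exact h

/-- **the positive cells** -/
theorem chk_pos {b : Fin 4 → ℤ} (hb : b ∈ ([![0, 1, 0, 0], ![0, 1, 2, 0], ![0, 1, 2, 2]] : List (Fin 4 → ℤ)))
    {y : ↥(twistedE6 K 2)} (hy : y ∈ X φ 2 b) (hy1 : y ≠ 1) :
    y * uu F * y⁻¹ * (uu F)⁻¹ ≠ 1 ∧ y * uu F * y⁻¹ * (uu F)⁻¹ ≠ xe F 71 (by decide +kernel) := by
  have := F.charP
  obtain ⟨ω, hω⟩ := exists_omega (K := K) (by rw [F.card]; norm_num)
  have okn : OkS [([], [])] := by
    intro a ha
    rw [List.mem_singleton] at ha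
    subst ha
    exact ⟨Acts.nil, rfl⟩
  have key : ∀ {ε : GL chevE6.Idx K}, ε = 1 ∨ ε = xG hE6 71 (1 : K) →
      (y : GL chevE6.Idx K) * (xG hE6 46 (1 : K) * xG hE6 70 (1 : K)) * (y : GL chevE6.Idx K)⁻¹ *
        (xG hE6 46 (1 : K) * xG hE6 70 (1 : K))⁻¹ ≠ ε := by
    intro ε hε
    have h0 : ∀ {rc : ℕ} {c : Ltr}, OkS [([], []), ([(rc, 0)], [c])] →
        ck c [([], [])] [([], [])] [([], [])] sU = true → (y : GL chevE6.Idx K) = xG hE6 rc (1 : K) →
        (y : GL chevE6.Idx K) * (xG hE6 46 (1 : K) * xG hE6 70 (1 : K)) * (y : GL chevE6.Idx K)⁻¹ *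
        (xG hE6 46 (1 : K) * xG hE6 70 (1 : K))⁻¹ ≠ ε := by
      intro rc c h1 h2 h3
      have h4 := main_step hω okn okn okn h1 h2 (a := ([], [])) (b := ([], [])) (c' := ([], [])) (by simp) (by simp)
        (by simp) hε
      have e1 : wdG ω hE6 ([] : List (ℕ × ℕ)) = 1 := rfl
      rw [h3]
      rw [e1, mul_one, mul_one, one_mul, inv_one, mul_one] at h4
      exact h4
    simp only [List.mem_cons, List.not_mem_nil, or_false] at hb
    rcases hb with rfl | rfl | rfl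
    · exact h0 ok39 ck4 (cases_y F (r := 39) (by simp) V_val.1 hy hy1)
    · exact h0 ok44 ck5 (cases_y F (r := 44) (by simp) V_val.2.1 hy hy1)
    · exact h0 ok60 ck6 (cases_y F (r := 60) (by simp) V_val.2.2.1 hy hy1)
  exact ⟨fun h => key (Or.inl rfl) (congrArg Subtype.val h), fun h => key (Or.inr rfl) (congrArg Subtype.val h)⟩

/-- **the negative cells** -/
theorem chk_neg {l : (Fin 4 → ℤ) × (Fin 4 → ℤ) × (Fin 4 → ℤ)} (hl : l ∈ lst) {p1 p2 p3 y : ↥(twistedE6 K 2)}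
    (h1 : p1 ∈ X φ 2 l.1) (h2 : p2 ∈ X φ 2 l.2.1) (h3 : p3 ∈ X φ 2 l.2.2) (hy : y ∈ X φ 2 (-l.1)) (hy1 : y ≠ 1) :
    ((p1 * p2 * p3) * y * (p1 * p2 * p3)⁻¹) * uu F * ((p1 * p2 * p3) * y * (p1 * p2 * p3)⁻¹)⁻¹ * (uu F)⁻¹ ≠ 1 ∧
    ((p1 * p2 * p3) * y * (p1 * p2 * p3)⁻¹) * uu F * ((p1 * p2 * p3) * y * (p1 * p2 * p3)⁻¹)⁻¹ * (uu F)⁻¹ ≠
      xe F 71 (by decide +kernel) := by
  have := F.charP
  have hK : Fintype.card K = 2 ^ 2 := by rw [F.card]; norm_num
  obtain ⟨ω, hω⟩ := exists_omega (K := K) hK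
  have n40 : ∀ i < 3, xG hE6 40 (ω ^ i) ≠ xG hE6 43 (ω ^ (2 * i % 3)) := by
    intro i hi
    interval_cases i
    · exact ne_of hω k40_eq k43_eq (by decide +kernel) (by decide +kernel) (k := 34) (by norm_num) 16 (by decide +kernel)
    · exact ne_of hω k40w1_eq k43w2_eq (by decide +kernel) (by decide +kernel) (k := 34) (by norm_num) 16
        (by decide +kernel)
    · exact ne_of hω k40w2_eq k43w1_eq (by decide +kernel) (by decide +kernel) (k := 34) (by norm_num) 16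
        (by decide +kernel)
  have n41 : ∀ i < 3, xG hE6 41 (ω ^ i) ≠ xG hE6 58 (ω ^ (2 * i % 3)) := by
    intro i hi
    interval_cases i
    · exact ne_of hω k41_eq k58_eq (by decide +kernel) (by decide +kernel) (k := 19) (by norm_num) 1 (by decide +kernel)
    · exact ne_of hω k41w1_eq k58w2_eq (by decide +kernel) (by decide +kernel) (k := 19) (by norm_num) 1
        (by decide +kernel)
    · exact ne_of hω k41w2_eq k58w1_eq (by decide +kernel) (by decide +kernel) (k := 19) (by norm_num) 1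
        (by decide +kernel)
  have n45 : ∀ i < 3, xG hE6 45 (ω ^ i) ≠ xG hE6 59 (ω ^ (2 * i % 3)) := by
    intro i hi
    interval_cases i
    · exact ne_of hω k45_eq k59_eq (by decide +kernel) (by decide +kernel) (k := 18) (by norm_num) 1 (by decide +kernel)
    · exact ne_of hω k45w1_eq k59w2_eq (by decide +kernel) (by decide +kernel) (k := 18) (by norm_num) 1
        (by decide +kernel)
    · exact ne_of hω k45w2_eq k59w1_eq (by decide +kernel) (by decide +kernel) (k := 18) (by norm_num) 1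
        (by decide +kernel)
  have d40 : ∀ {g : ↥(twistedE6 K 2)}, g ∈ X φ 2 ![0, 1, 1, 0] → ∃ a ∈ s40, (g : GL chevE6.Idx K) = wdG ω hE6 a.1 :=
    fun hg => short_dig F.sq hK hω (r := 40) (r' := 43) (by simp) rho_shorts.1 (by decide) n40 V_val.2.2.2.2.2.2.1 hg
  have d41 : ∀ {g : ↥(twistedE6 K 2)}, g ∈ X φ 2 ![0, 1, 1, 1] → ∃ a ∈ s41, (g : GL chevE6.Idx K) = wdG ω hE6 a.1 :=
    fun hg => short_dig F.sq hK hω (r := 41) (r' := 58) (by simp) rho_shorts.2.1 (by decide) n41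
      V_val.2.2.2.2.2.2.2.1 hg
  have d45 : ∀ {g : ↥(twistedE6 K 2)}, g ∈ X φ 2 ![0, 1, 2, 1] → ∃ a ∈ s45, (g : GL chevE6.Idx K) = wdG ω hE6 a.1 :=
    fun hg => short_dig F.sq hK hω (r := 45) (r' := 59) (by simp) rho_shorts.2.2 (by decide) n45
      V_val.2.2.2.2.2.2.2.2 hg
  have key : ∀ {ε : GL chevE6.Idx K}, ε = 1 ∨ ε = xG hE6 71 (1 : K) →
      (((p1 : GL chevE6.Idx K) * p2 * p3) * y * ((p1 : GL chevE6.Idx K) * p2 * p3)⁻¹) *
        (xG hE6 46 (1 : K) * xG hE6 70 (1 : K)) *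
        (((p1 : GL chevE6.Idx K) * p2 * p3) * y * ((p1 : GL chevE6.Idx K) * p2 * p3)⁻¹)⁻¹ *
        (xG hE6 46 (1 : K) * xG hE6 70 (1 : K))⁻¹ ≠ ε := by
    intro ε hε
    unfold lst at hl
    simp only [List.mem_cons, List.not_mem_nil, or_false] at hl
    rcases hl with rfl | rfl | rfl
    · obtain ⟨a, ha, e1⟩ := long_dig (l := k39) F.sq hω (r := 39) (by simp) V_val.1 h1
      obtain ⟨b, hb, e2⟩ := d40 h2
      obtain ⟨c, hc, e3⟩ := d41 h3
      rw [e1, e2, e3, cases_y F (r := 32) (by simp) V_val.2.2.2.1 hy hy1]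
      exact main_step hω ok39 ok40 ok41 ok32 ck1 ha hb hc hε
    · obtain ⟨a, ha, e1⟩ := long_dig (l := k44) F.sq hω (r := 44) (by simp) V_val.2.1 h1
      obtain ⟨b, hb, e2⟩ := d40 h2
      obtain ⟨c, hc, e3⟩ := d45 h3
      rw [e1, e2, e3, cases_y F (r := 27) (by simp) V_val.2.2.2.2.1 hy hy1]
      exact main_step hω ok44 ok40 ok45 ok27 ck2 ha hb hc hε
    · obtain ⟨a, ha, e1⟩ := long_dig (l := k60) F.sq hω (r := 60) (by simp) V_val.2.2.1 h1
      obtain ⟨b, hb, e2⟩ := d41 h2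
      obtain ⟨c, hc, e3⟩ := d45 h3
      rw [e1, e2, e3, cases_y F (r := 11) (by simp) V_val.2.2.2.2.2.1 hy hy1]
      exact main_step hω ok60 ok41 ok45 ok11 ck3 ha hb hc hε
  exact ⟨fun h => key (Or.inl rfl) (congrArg Subtype.val h), fun h => key (Or.inr rfl) (congrArg Subtype.val h)⟩

end

end Cfsg.Agent.H891.EPF
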